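import Groth.Prelude.Def_AlgSp3
import Groth.Prelude.Def_AlgSp2
import Groth.Prelude.Def_AlgSp4
import Groth.Prelude.Def_AlgSpDec
import Mathlib.AlgebraicGeometry.Morphisms.UniversallyOpen

/-!
# Charts of algebraic spaces (helper15)

Basic lemmas about `AlgSp.RepWith`, `AlgSp.LocP` and étale charts `h_U ⟶ F`:
* `repWith_pullback`: the represented pullback of a `RepWith P` morphism, with `P` of the projection;
* `etale_of_chart_hom`: a morphism `k : U ⟶ V` of schemes over `S` between two representable étale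
  maps `h_U ⟶ F`, `h_V ⟶ F` (compatible) is étale;
* `locP_of_repWith`: if `f` is representable with property `Q ≤ P`, `P` stable under composition
  and implied by étale, then `f` has `P` étale locally on source and target (`AlgSp.LocP P f`).
-/

set_option autoImplicit false
universe u

open CategoryTheory CategoryTheory.Limits AlgebraicGeometry Opposite

namespace Groth.Agent.Lib.Helper15.AlgSpChart

variable {S : Scheme.{u}}

theorem repWith_pullback {P : MorphismProperty Scheme.{u}} {F G : AlgSp.Sp S} {f : F ⟶ G}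
    (hf : AlgSp.RepWith P f) {U : Over S} (g : (AlgSp.yon S).obj U ⟶ G) :
    ∃ (V : Over S) (snd : V ⟶ U) (fst : (AlgSp.yon S).obj V ⟶ F),
      IsPullback fst ((AlgSp.yon S).map snd) f g ∧ P snd.left := by
  obtain ⟨V, snd, fst, h⟩ := hf.1 g
  exact ⟨V, snd, fst, h, hf.2 g fst snd h⟩

theorem etale_of_chart_hom {F : AlgSp.Sp S} {U V : Over S} (a : (AlgSp.yon S).obj U ⟶ F)
    (ψ : (AlgSp.yon S).obj V ⟶ F) (ha : AlgSp.RepWith @Etale a) (hψ : AlgSp.RepWith @Etale ψ)
    (k : U ⟶ V) (hk : (AlgSp.yon S).map k ≫ ψ = a) : Etale k.left := by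
  obtain ⟨W, snd, fst, hpb, hsnd⟩ := repWith_pullback hψ a
  have hsnd' : Etale snd.left := hsnd
  have := AlgSp.repWith_isStableUnderBaseChange (S := S) @Etale
  have hfst : AlgSp.RepWith @Etale fst := MorphismProperty.of_isPullback hpb.flip ha
  obtain ⟨t, rfl⟩ := (AlgSp.yon S).map_surjective fst
  have ht : Etale t.left := (AlgSp.repWith_yon_map_iff _ t).1 hfst
  obtain ⟨s, hs⟩ := (AlgSp.yon S).map_surjective
    (hpb.lift ((AlgSp.yon S).map k) (𝟙 _) (by rw [hk, Category.id_comp]))
  have hs1 : (AlgSp.yon S).map s ≫ (AlgSp.yon S).map t = (AlgSp.yon S).map k := by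
    rw [hs]; exact hpb.lift_fst _ _ _
  have hs2 : (AlgSp.yon S).map s ≫ (AlgSp.yon S).map snd = 𝟙 _ := by
    rw [hs]; exact hpb.lift_snd _ _ _
  rw [← Functor.map_comp] at hs1 hs2
  have hk' : s ≫ t = k := (AlgSp.yon S).map_injective hs1
  have hs2' : s ≫ snd = 𝟙 U := (AlgSp.yon S).map_injective (by rw [hs2]; exact ((AlgSp.yon S).map_id U).symm)
  have : Etale (s.left ≫ snd.left) := by
    rw [← Over.comp_left, hs2', Over.id_left]; infer_instance
  have : Etale s.left := Etale.of_comp s.left snd.left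
  rw [← hk', Over.comp_left]
  infer_instance

theorem locP_of_repWith {P Q : MorphismProperty Scheme.{u}} [P.IsStableUnderComposition]
    (hEt : ∀ {X Y : Scheme.{u}} (g : X ⟶ Y), Etale g → P g)
    (hQP : ∀ {X Y : Scheme.{u}} (g : X ⟶ Y), Q g → P g)
    {F G : AlgSp.Sp S} {f : F ⟶ G} (hf : AlgSp.RepWith Q f) : AlgSp.LocP P f := by
  intro U V a b h ha hb hab
  obtain ⟨V', φ, ψ, hpb, hφ⟩ := repWith_pullback hf b
  have := AlgSp.repWith_isStableUnderBaseChange (S := S) @Etale
  have hψ : AlgSp.RepWith @Etale ψ := MorphismProperty.of_isPullback hpb.flip hb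
  obtain ⟨k, hk⟩ := (AlgSp.yon S).map_surjective (hpb.lift a ((AlgSp.yon S).map h) hab)
  have hk1 : (AlgSp.yon S).map k ≫ ψ = a := by rw [hk]; exact hpb.lift_fst _ _ _
  have hk2 : (AlgSp.yon S).map k ≫ (AlgSp.yon S).map φ = (AlgSp.yon S).map h := by
    rw [hk]; exact hpb.lift_snd _ _ _
  rw [← Functor.map_comp] at hk2
  have hk2' : k ≫ φ = h := (AlgSp.yon S).map_injective hk2
  have hke := etale_of_chart_hom a ψ ha hψ k hk1
  rw [← hk2', Over.comp_left]
  exact P.comp_mem _ _ (hEt _ hke) (hQP _ hφ)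

end Groth.Agent.Lib.Helper15.AlgSpChart

namespace Groth.Agent.Lib.Helper15.AlgSpChart

variable {S : Scheme.{u}}

/-- Two maps `h_T ⟶ F` that agree after composing with a morphism representable by monomorphisms
agree. -/
theorem eq_of_repWith_mono {Q : MorphismProperty Scheme.{u}}
    (hQ : ∀ {X Y : Scheme.{u}} (g : X ⟶ Y), Q g → Mono g)
    {F G : AlgSp.Sp S} {f : F ⟶ G} (hf : AlgSp.RepWith Q f) {T : Over S}
    (u v : (AlgSp.yon S).obj T ⟶ F) (huv : u ≫ f = v ≫ f) : u = v := by
  obtain ⟨V, snd, fst, hpb, hsnd⟩ := repWith_pullback hf (u ≫ f)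
  obtain ⟨su, hsu⟩ := (AlgSp.yon S).map_surjective (hpb.lift u (𝟙 _) (by rw [Category.id_comp]))
  obtain ⟨sv, hsv⟩ := (AlgSp.yon S).map_surjective
    (hpb.lift v (𝟙 _) (by rw [Category.id_comp, huv]))
  have h1 : su ≫ snd = 𝟙 T := (AlgSp.yon S).map_injective (by
    rw [Functor.map_comp, hsu, hpb.lift_snd]; exact ((AlgSp.yon S).map_id T).symm)
  have h2 : sv ≫ snd = 𝟙 T := (AlgSp.yon S).map_injective (by
    rw [Functor.map_comp, hsv, hpb.lift_snd]; exact ((AlgSp.yon S).map_id T).symm)
  have : Mono snd.left := hQ _ hsnd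
  have : Mono snd := Over.mono_of_mono_left snd
  have hs : su = sv := by rw [← cancel_mono snd, h1, h2]
  have eu : u = (AlgSp.yon S).map su ≫ fst := by rw [hsu, hpb.lift_fst]
  have ev : v = (AlgSp.yon S).map sv ≫ fst := by rw [hsv, hpb.lift_fst]
  rw [eu, ev, hs]

/-- A morphism of sheaves representable by monomorphisms of schemes is a monomorphism. -/
theorem mono_of_repWith {Q : MorphismProperty Scheme.{u}}
    (hQ : ∀ {X Y : Scheme.{u}} (g : X ⟶ Y), Q g → Mono g)
    {F G : AlgSp.Sp S} {f : F ⟶ G} (hf : AlgSp.RepWith Q f) : Mono f := by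
  constructor
  intro W a b hab
  apply Sheaf.hom_ext
  ext T s
  have h := congrArg (AlgSp.J S).uliftYonedaEquiv
    (eq_of_repWith_mono hQ hf ((AlgSp.J S).uliftYonedaEquiv.symm s ≫ a)
      ((AlgSp.J S).uliftYonedaEquiv.symm s ≫ b) (by rw [Category.assoc, Category.assoc, hab]))
  rw [GrothendieckTopology.uliftYonedaEquiv_comp, GrothendieckTopology.uliftYonedaEquiv_comp,
    Equiv.apply_symm_apply] at h
  exact h

end Groth.Agent.Lib.Helper15.AlgSpChart

namespace Groth.Agent.Lib.Helper15.AlgSpChart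

variable {S : Scheme.{u}}

/-- The chart of a base change: if `f : F ⟶ G` is representable with property `Q`, `Q`-morphisms
transport the scheme property `P` from target to source, and `Z` has an étale surjective chart
with `P`, then so does every base change `Z' = Z ×_G F`. -/
theorem etaleLocally_of_isPullback {P : Scheme.{u} → Prop} {Q : MorphismProperty Scheme.{u}}
    (hPQ : ∀ {X Y : Scheme.{u}} (g : X ⟶ Y), Q g → P Y → P X)
    {F G Z Z' : AlgSp.Sp S} {f : F ⟶ G} (hf : AlgSp.RepWith Q f) {g : Z ⟶ G} {fst : Z' ⟶ F}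
    {snd : Z' ⟶ Z} (hpb : IsPullback fst snd f g) (hZ : AlgSp.EtaleLocally P Z) :
    AlgSp.EtaleLocally P Z' := by
  obtain ⟨U, p, hpe, hps, hU⟩ := hZ
  obtain ⟨V, s, t, hpb', hs⟩ := repWith_pullback hf (p ≫ g)
  let q : (AlgSp.yon S).obj V ⟶ Z' :=
    hpb.lift t ((AlgSp.yon S).map s ≫ p) (by rw [hpb'.w, Category.assoc])
  have hq1 : q ≫ fst = t := hpb.lift_fst _ _ _
  have hq2 : q ≫ snd = (AlgSp.yon S).map s ≫ p := hpb.lift_snd _ _ _
  have sq : IsPullback q ((AlgSp.yon S).map s) snd p := by
    refine IsPullback.of_right ?_ hq2 hpb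
    rw [hq1]; exact hpb'
  have := AlgSp.repWith_isStableUnderBaseChange (S := S) @Etale
  have := AlgSp.repWith_isStableUnderBaseChange (S := S) @Surjective
  exact ⟨V, q, MorphismProperty.of_isPullback sq.flip hpe,
    MorphismProperty.of_isPullback sq.flip hps, hPQ _ hs hU⟩

end Groth.Agent.Lib.Helper15.AlgSpChart

namespace Groth.Agent.Lib.Helper15.AlgSpChart

/-- A commutative square is a pullback iff it is one after composing the two maps to the corner with
a monomorphism. -/
theorem isPullback_comp_mono_iff {C : Type*} [Category C] {P X Y B D : C} {fst : P ⟶ X}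
    {snd : P ⟶ Y} {f : X ⟶ B} {g : Y ⟶ B} (m : B ⟶ D) [Mono m] :
    IsPullback fst snd (f ≫ m) (g ≫ m) ↔ IsPullback fst snd f g := by
  have Q : IsPullback g (𝟙 Y) m (g ≫ m) := IsPullback.of_vert_isIso_mono ⟨by simp⟩
  constructor
  · intro h
    refine IsPullback.of_bot (v₂₁ := 𝟙 Y) (v₂₂ := m) (h₃₁ := g ≫ m) ?_ ?_ Q
    · simpa using h
    · rw [← cancel_mono m, Category.assoc, Category.assoc]; exact h.w
  · intro h
    simpa using h.paste_vert Q

variable {S : Scheme.{u}}

/-- If `g ≫ m` is representable with property `P` and `m` is a monomorphism, then `g` is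
representable with property `P`. -/
theorem repWith_of_comp_mono {P : MorphismProperty Scheme.{u}} {F₁ F₂ F : AlgSp.Sp S}
    (g : F₁ ⟶ F₂) (m : F₂ ⟶ F) [Mono m] (h : AlgSp.RepWith P (g ≫ m)) : AlgSp.RepWith P g := by
  refine ⟨fun U u => ?_, fun U V u fst snd hpb => ?_⟩
  · obtain ⟨V, snd, fst, hpb⟩ := h.1 (u ≫ m)
    exact ⟨V, snd, fst, (isPullback_comp_mono_iff m).1 hpb⟩
  · exact h.2 (u ≫ m) fst snd ((isPullback_comp_mono_iff m).2 hpb)

end Groth.Agent.Lib.Helper15.AlgSpChart

namespace Groth.Agent.Lib.Helper15.AlgSpChart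

variable {S : Scheme.{u}}

open AlgSp in
/-- Sections of a pullback of sheaves: compatible sections lift. -/
theorem exists_section_of_isPullback {F₁ F₂ G P : AlgSp.Sp S} {f : F₁ ⟶ G} {g : F₂ ⟶ G}
    {fst : P ⟶ F₁} {snd : P ⟶ F₂} (h : IsPullback fst snd f g) {T : Over S}
    (s₁ : F₁.obj.obj (op T)) (s₂ : F₂.obj.obj (op T))
    (e : f.hom.app (op T) s₁ = g.hom.app (op T) s₂) :
    ∃ s : P.obj.obj (op T), fst.hom.app (op T) s = s₁ ∧ snd.hom.app (op T) s = s₂ := by
  let u₁ := (GrothendieckTopology.uliftYonedaEquiv.{u+1} (AlgSp.J S)).symm s₁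
  let u₂ := (GrothendieckTopology.uliftYonedaEquiv.{u+1} (AlgSp.J S)).symm s₂
  have hu : u₁ ≫ f = u₂ ≫ g := by
    apply (GrothendieckTopology.uliftYonedaEquiv.{u+1} (AlgSp.J S)).injective
    rw [GrothendieckTopology.uliftYonedaEquiv_comp, GrothendieckTopology.uliftYonedaEquiv_comp,
      Equiv.apply_symm_apply, Equiv.apply_symm_apply, e]
  refine ⟨(GrothendieckTopology.uliftYonedaEquiv.{u+1} (AlgSp.J S)) (h.lift u₁ u₂ hu), ?_, ?_⟩
  · rw [← GrothendieckTopology.uliftYonedaEquiv_comp, h.lift_fst, Equiv.apply_symm_apply]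
  · rw [← GrothendieckTopology.uliftYonedaEquiv_comp, h.lift_snd, Equiv.apply_symm_apply]

open AlgSp in
/-- Points of a fibre product of sheaves: two points with the same image come from a common
point of the fibre product. -/
theorem points_exists_of_isPullback {F₁ F₂ G P : AlgSp.Sp S} {f : F₁ ⟶ G} {g : F₂ ⟶ G}
    {fst : P ⟶ F₁} {snd : P ⟶ F₂} (h : IsPullback fst snd f g) (x₁ : Points F₁)
    (x₂ : Points F₂) (e : Points.map f x₁ = Points.map g x₂) :
    ∃ p : Points P, Points.map fst p = x₁ ∧ Points.map snd p = x₂ := by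
  induction x₁ using Points.ind with
  | h p₁ =>
  induction x₂ using Points.ind with
  | h p₂ =>
  rw [Points.map_mk, Points.map_mk, Points.mk_eq_mk_iff] at e
  obtain ⟨Ω, _, w, a, b, hab⟩ := e
  let a' : Over.mk w ⟶ p₁.pt := a
  let b' : Over.mk w ⟶ p₂.pt := b
  have hab' : G.obj.map a'.op (f.hom.app (op p₁.pt) p₁.val) =
      G.obj.map b'.op (g.hom.app (op p₂.pt) p₂.val) := hab
  have e' : f.hom.app _ (F₁.obj.map a'.op p₁.val) = g.hom.app _ (F₂.obj.map b'.op p₂.val) := by
    rw [NatTrans.naturality_apply, NatTrans.naturality_apply]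
    exact hab'
  obtain ⟨s, hs₁, hs₂⟩ := exists_section_of_isPullback h _ _ e'
  refine ⟨Points.mk ⟨Ω, w, s⟩, ?_, ?_⟩
  · rw [Points.map_mk]
    apply Points.sound
    refine ⟨Ω, inferInstance, w, 𝟙 _, a', ?_⟩
    change F₁.obj.map (𝟙 _).op (fst.hom.app _ s) = _
    rw [hs₁, op_id, F₁.obj.map_id]
    rfl
  · rw [Points.map_mk]
    apply Points.sound
    refine ⟨Ω, inferInstance, w, 𝟙 _, b', ?_⟩
    change F₂.obj.map (𝟙 _).op (snd.hom.app _ s) = _
    rw [hs₂, op_id, F₂.obj.map_id]
    rfl

open AlgSp in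
theorem ofPt_yon_map_comp {F : AlgSp.Sp S} {V T : Over S} (φ : V ⟶ T)
    (g : (AlgSp.yon S).obj T ⟶ F) (v : ↥V.left) :
    Points.ofPt ((AlgSp.yon S).map φ ≫ g) v = Points.ofPt g (φ.left v) := by
  rw [← Points.map_ofPt, Points.ofPt_eq_map_ofScheme g]
  congr 1
  rw [Points.ofPt_eq_map_ofScheme]
  exact Points.map_yon_map_apply φ v

end Groth.Agent.Lib.Helper15.AlgSpChart

namespace Groth.Agent.Lib.Helper15.AlgSpChart

variable {S : Scheme.{u}}

open AlgSp in
theorem ofScheme_injective (T : Over S) : Function.Injective (Points.ofScheme T) :=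
  (Points.schemeEquiv T).injective

open AlgSp in
/-- A morphism of sheaves representable by closed immersions induces a closed map on points. -/
theorem isClosedMap_of_repWith_closedImmersion {A B : AlgSp.Sp S} {k : A ⟶ B}
    (hk : AlgSp.RepWith @IsClosedImmersion k) : IsClosedMap (Points.map k) := by
  intro C hC
  rw [← isOpen_compl_iff, Points.isOpen_iff]
  intro T g
  rw [Set.preimage_compl, isOpen_compl_iff]
  obtain ⟨V, φ, g', hpb, hφ⟩ := repWith_pullback hk g
  have : IsClosedImmersion φ.left := hφ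
  have key : Points.ofPt g ⁻¹' (Points.map k '' C) = φ.left '' (Points.ofPt g' ⁻¹' C) := by
    ext t
    constructor
    · rintro ⟨c, hc, hct⟩
      have e : Points.map k c = Points.map g (Points.ofScheme T t) := by
        rw [hct, Points.ofPt_eq_map_ofScheme]
      obtain ⟨p, hp1, hp2⟩ := points_exists_of_isPullback hpb c (Points.ofScheme T t) e
      refine ⟨Points.toScheme V p, ?_, ?_⟩
      · show Points.ofPt g' (Points.toScheme V p) ∈ C
        rw [Points.ofPt_eq_map_ofScheme, Points.ofScheme_toScheme, hp1]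
        exact hc
      · apply ofScheme_injective T
        rw [← hp2, ← Points.ofScheme_toScheme V p]
        rw [Points.toScheme_ofScheme]
        exact (Points.map_yon_map_apply φ (Points.toScheme V p)).symm
    · rintro ⟨v, hv, rfl⟩
      refine ⟨Points.ofPt g' v, hv, ?_⟩
      rw [Points.map_ofPt, hpb.w, ofPt_yon_map_comp]
  rw [key]
  exact φ.left.isClosedEmbedding.isClosedMap _ (hC.preimage (Points.continuous_ofPt g'))

end Groth.Agent.Lib.Helper15.AlgSpChart

namespace Groth.Agent.Lib.Helper15.AlgSpChart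

variable {S : Scheme.{u}}

open AlgSp in
/-- For a represented pullback square of `f` along `g : h_T ⟶ G`, a point `t` of `T` lifts to the
represented scheme as soon as the point of `G` it defines is in the image of `f` on points. -/
theorem exists_preimage_of_isPullback {F G : AlgSp.Sp S} {f : F ⟶ G} {T V : Over S}
    {g : (AlgSp.yon S).obj T ⟶ G} {g' : (AlgSp.yon S).obj V ⟶ F} {φ : V ⟶ T}
    (hpb : IsPullback g' ((AlgSp.yon S).map φ) f g) (t : ↥T.left) (x : Points F)
    (hx : Points.map f x = Points.ofPt g t) :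
    ∃ v : ↥V.left, φ.left v = t ∧ Points.ofPt g' v = x := by
  have e : Points.map f x = Points.map g (Points.ofScheme T t) := by
    rw [hx, Points.ofPt_eq_map_ofScheme]
  obtain ⟨p, hp1, hp2⟩ := points_exists_of_isPullback hpb x (Points.ofScheme T t) e
  refine ⟨Points.toScheme V p, ?_, ?_⟩
  · apply ofScheme_injective T
    rw [← hp2, ← Points.ofScheme_toScheme V p]
    rw [Points.toScheme_ofScheme]
    exact (Points.map_yon_map_apply φ (Points.toScheme V p)).symm
  · rw [Points.ofPt_eq_map_ofScheme, Points.ofScheme_toScheme, hp1]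

open AlgSp in
/-- A representable morphism of sheaves is representable surjective iff it is surjective on
points. -/
theorem repWith_surjective_iff {F G : AlgSp.Sp S} {f : F ⟶ G} (hf : AlgSp.Representable f) :
    AlgSp.RepWith @Surjective f ↔ Function.Surjective (Points.map f) := by
  constructor
  · intro h y
    induction y using Points.ind with
    | h p =>
    obtain ⟨V, φ, g', hpb⟩ := hf p.toHom
    have hφ : Surjective φ.left := h.2 _ _ _ hpb
    obtain ⟨v, -⟩ := hφ.surj (IsLocalRing.closedPoint p.K)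
    refine ⟨Points.ofPt g' v, ?_⟩
    rw [Points.map_ofPt, hpb.w, ofPt_yon_map_comp]
    exact Points.ofPt_toHom p (φ.left v)
  · intro h
    refine ⟨hf, fun U V g g' φ hpb => ⟨fun t => ?_⟩⟩
    obtain ⟨x, hx⟩ := h (Points.ofPt g t)
    obtain ⟨v, hv, -⟩ := exists_preimage_of_isPullback hpb t x hx
    exact ⟨v, hv⟩

end Groth.Agent.Lib.Helper15.AlgSpChart

namespace Groth.Agent.Lib.Helper15.AlgSpChart

variable {S : Scheme.{u}}

/-- A monomorphism of fppf sheaves through which every map from a representable sheaf factors is an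
isomorphism. -/
theorem isIso_of_mono_of_lift {F G : AlgSp.Sp S} (f : F ⟶ G) [Mono f]
    (hlift : ∀ (T : Over S) (u : (AlgSp.yon S).obj T ⟶ G),
      ∃ ℓ : (AlgSp.yon S).obj T ⟶ F, ℓ ≫ f = u) : IsIso f := by
  have hm : Mono f.hom := (sheafToPresheaf (AlgSp.J S) _).map_mono f
  have : IsIso f.hom := by
    have : ∀ T, IsIso (f.hom.app T) := by
      intro T
      rw [isIso_iff_bijective]
      refine ⟨?_, ?_⟩
      · have := (NatTrans.mono_iff_mono_app f.hom).1 hm T
        exact (mono_iff_injective _).1 this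
      · intro s
        obtain ⟨ℓ, hℓ⟩ := hlift T.unop ((GrothendieckTopology.uliftYonedaEquiv.{u+1} (AlgSp.J S)).symm s)
        refine ⟨GrothendieckTopology.uliftYonedaEquiv.{u+1} (AlgSp.J S) ℓ, ?_⟩
        have := congrArg (GrothendieckTopology.uliftYonedaEquiv.{u+1} (AlgSp.J S)) hℓ
        rw [GrothendieckTopology.uliftYonedaEquiv_comp, Equiv.apply_symm_apply] at this
        exact this
    exact NatIso.isIso_of_isIso_app f.hom
  have : IsIso ((sheafToPresheaf (AlgSp.J S) _).map f) := this
  exact isIso_of_reflects_iso f (sheafToPresheaf (AlgSp.J S) _)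

open AlgSp in
/-- A morphism representable by open immersions which is surjective on points is an isomorphism. -/
theorem isIso_of_repWith_openImmersion {F G : AlgSp.Sp S} {f : F ⟶ G}
    (hf : AlgSp.RepWith @IsOpenImmersion f) (hs : Function.Surjective (Points.map f)) : IsIso f := by
  have : Mono f := mono_of_repWith (Q := @IsOpenImmersion)
    (fun g hg => by have := hg; infer_instance) hf
  refine isIso_of_mono_of_lift f fun T u => ?_
  obtain ⟨V, φ, g', hpb, hφ⟩ := repWith_pullback hf u
  have : IsOpenImmersion φ.left := hφ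
  have : IsIso φ.left := by
    apply isIso_of_isOpenImmersion_of_opensRange_eq_top
    ext t
    simp only [TopologicalSpace.Opens.coe_top, Set.mem_univ, iff_true]
    obtain ⟨x, hx⟩ := hs (Points.ofPt u t)
    obtain ⟨v, hv, -⟩ := exists_preimage_of_isPullback hpb t x hx
    exact ⟨v, hv⟩
  have : IsIso ((Over.forget S).map φ) := (inferInstance : IsIso φ.left)
  have : IsIso φ := isIso_of_reflects_iso φ (Over.forget S)
  refine ⟨(AlgSp.yon S).map (inv φ) ≫ g', ?_⟩
  rw [Category.assoc, hpb.w, ← Category.assoc, ← Functor.map_comp, IsIso.inv_hom_id,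
    (AlgSp.yon S).map_id, Category.id_comp]

end Groth.Agent.Lib.Helper15.AlgSpChart

namespace Groth.Agent.Lib.Helper15.AlgSpChart

variable {S : Scheme.{u}}

theorem representable_of_comp_mono {F G H : AlgSp.Sp S} (u : F ⟶ G) (j : G ⟶ H) [Mono j]
    (h : AlgSp.Representable (u ≫ j)) : AlgSp.Representable u := by
  intro U g
  obtain ⟨V, snd, fst, hpb⟩ := h (g ≫ j)
  exact ⟨V, snd, fst, (isPullback_comp_mono_iff j).1 hpb⟩

set_option backward.isDefEq.respectTransparency false in
theorem isPullback_prod_snd_with_id {C : Type*} [Category C] {A B : C} (f : A ⟶ B) (X : C)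
    [HasBinaryProduct X A] [HasBinaryProduct X B] :
    IsPullback prod.snd (prod.map (𝟙 X) f) f prod.snd where
  w := by simp
  isLimit' := ⟨PullbackCone.isLimitAux' _ (fun s ↦ by
    refine ⟨prod.lift (s.snd ≫ prod.fst) s.fst, ?_, ?_, ?_⟩
    · simp
    · ext
      · simp
      · simp [PullbackCone.condition]
    · intro m h₁ h₂
      dsimp at m h₁ h₂ ⊢
      refine prod.hom_ext (X := X) (Y := A) ?_ ?_
      · simp [← h₂]
      · simpa using h₁)⟩

theorem representable_prod_map {A B C D : AlgSp.Sp S} (a : A ⟶ B) (b : C ⟶ D)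
    (ha : AlgSp.Representable a) (hb : AlgSp.Representable b) :
    AlgSp.Representable (prod.map a b) := by
  have h1 : AlgSp.Representable (prod.map a (𝟙 C)) :=
    MorphismProperty.of_isPullback (IsPullback.of_prod_fst_with_id a C) ha
  have h3 : AlgSp.Representable (prod.map (𝟙 B) b) :=
    MorphismProperty.of_isPullback (isPullback_prod_snd_with_id b B) hb
  have : prod.map a b = prod.map a (𝟙 C) ≫ prod.map (𝟙 B) b := by
    apply prod.hom_ext <;> simp
  rw [this]
  exact MorphismProperty.comp_mem _ _ _ h1 h3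

/-- A fibre product of algebraic spaces over a sheaf with representable diagonal is an algebraic
space. -/
theorem isAlgSpace_of_isPullback {H : AlgSp.Sp S} (hH : AlgSp.Representable (Limits.diag H))
    {X Y P : AlgSp.Sp S} (hX : AlgSp.IsAlgSpace X) (hY : AlgSp.IsAlgSpace Y) {f : X ⟶ H}
    {g : Y ⟶ H} {fst : P ⟶ X} {snd : P ⟶ Y} (h : IsPullback fst snd f g) :
    AlgSp.IsAlgSpace P where
  diag := by
    apply Functor.relativelyRepresentable.diag_of_map_from_obj
    intro U u
    have hj : Mono (prod.lift fst snd) := ⟨fun a b hab => by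
      have h1 := congrArg (· ≫ prod.fst) hab
      have h2 := congrArg (· ≫ prod.snd) hab
      simp only [Category.assoc, prod.lift_fst, prod.lift_snd] at h1 h2
      exact h.hom_ext h1 h2⟩
    apply representable_of_comp_mono u (prod.lift fst snd)
    have : u ≫ prod.lift fst snd = Limits.diag _ ≫ prod.map (u ≫ fst) (u ≫ snd) := by
      apply prod.hom_ext <;> simp
    rw [this]
    exact MorphismProperty.comp_mem _ _ _ (AlgSp.IsAlgSpace.yon_obj U).diag
      (representable_prod_map _ _ (hX.representable_from_yon _) (hY.representable_from_yon _))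
  atlas := by
    obtain ⟨UX, pX, hpXe, hpXs⟩ := hX.atlas
    obtain ⟨UY, pY, hpYe, hpYs⟩ := hY.atlas
    obtain ⟨W, sW, fW, hW⟩ := Functor.relativelyRepresentable.of_diag hH (pX ≫ f) (pY ≫ g)
    let q : (AlgSp.yon S).obj W ⟶ P :=
      h.lift (fW ≫ pX) ((AlgSp.yon S).map sW ≫ pY) (by simpa using hW.w)
    have h₁ := IsPullback.of_hasPullback snd pY
    have hbig := h₁.paste_horiz h
    let q1 : (AlgSp.yon S).obj W ⟶ pullback snd pY :=
      pullback.lift q ((AlgSp.yon S).map sW) (h.lift_snd _ _ _)
    have hq1a : q1 ≫ pullback.fst snd pY = q := pullback.lift_fst _ _ _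
    have hq1b : q1 ≫ pullback.snd snd pY = (AlgSp.yon S).map sW := pullback.lift_snd _ _ _
    have htop : IsPullback fW q1 pX (pullback.fst snd pY ≫ fst) := by
      refine IsPullback.of_bot ?_ ?_ hbig
      · rw [hq1b]; exact hW
      · rw [← Category.assoc, hq1a, h.lift_fst]
    have := AlgSp.repWith_isStableUnderBaseChange (S := S) @Etale
    have := AlgSp.repWith_isStableUnderBaseChange (S := S) @Surjective
    have := AlgSp.repWith_isMultiplicative (S := S) @Etale
    have := AlgSp.repWith_isMultiplicative (S := S) @Surjective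
    refine ⟨W, q1 ≫ pullback.fst snd pY, ?_, ?_⟩
    · exact MorphismProperty.comp_mem _ _ _ (MorphismProperty.of_isPullback htop hpXe)
        (MorphismProperty.of_isPullback h₁.flip hpYe)
    · exact MorphismProperty.comp_mem _ _ _ (MorphismProperty.of_isPullback htop hpXs)
        (MorphismProperty.of_isPullback h₁.flip hpYs)

end Groth.Agent.Lib.Helper15.AlgSpChart

namespace Groth.Agent.Lib.Helper15.AlgSpChart

variable {S : Scheme.{u}}

open AlgSp in
/-- The map on points induced by a representable étale map from a scheme is open. -/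
theorem isOpenMap_ofPt_of_repWith_etale {F : AlgSp.Sp S} {U : Over S}
    (a : (AlgSp.yon S).obj U ⟶ F) (ha : AlgSp.RepWith @Etale a) : IsOpenMap (Points.ofPt a) := by
  intro W hW
  rw [Points.isOpen_iff]
  intro T g
  obtain ⟨V, φ, g', hpb, hφ⟩ := repWith_pullback ha g
  have : Etale φ.left := hφ
  obtain ⟨ψ, rfl⟩ := (AlgSp.yon S).map_surjective g'
  have key : Points.ofPt g ⁻¹' (Points.ofPt a '' W) = φ.left '' (ψ.left ⁻¹' W) := by
    ext t
    constructor
    · rintro ⟨w, hw, hwt⟩
      have hx : Points.map a (Points.ofScheme U w) = Points.ofPt g t := by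
        rw [← Points.ofPt_eq_map_ofScheme]; exact hwt
      obtain ⟨v, hv, hv2⟩ := exists_preimage_of_isPullback hpb t _ hx
      refine ⟨v, ?_, hv⟩
      have : ψ.left v = w := by
        apply ofScheme_injective U
        rw [← hv2, Points.ofPt_eq_map_ofScheme]
        exact (Points.map_yon_map_apply ψ v).symm
      show ψ.left v ∈ W
      rw [this]; exact hw
    · rintro ⟨v, hv, rfl⟩
      refine ⟨ψ.left v, hv, ?_⟩
      rw [← ofPt_yon_map_comp ψ a v, hpb.w, ofPt_yon_map_comp φ g v]
  rw [key]
  exact φ.left.isOpenMap _ (hW.preimage ψ.left.continuous)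

open AlgSp in
/-- A representable surjective map from a scheme is surjective on points. -/
theorem surjective_ofPt_of_repWith_surjective {F : AlgSp.Sp S} {U : Over S}
    (a : (AlgSp.yon S).obj U ⟶ F) (ha : AlgSp.RepWith @Surjective a) :
    Function.Surjective (Points.ofPt a) := by
  intro x
  obtain ⟨y, hy⟩ := (repWith_surjective_iff ha.1).1 ha x
  obtain ⟨t, rfl⟩ := (Points.schemeEquiv U).surjective y
  exact ⟨t, by rw [Points.ofPt_eq_map_ofScheme]; exact hy⟩

end Groth.Agent.Lib.Helper15.AlgSpChart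

namespace Groth.Agent.Lib.Helper15.AlgSpChart

variable {S : Scheme.{u}}

open AlgSp in
/-- An algebraic space is quasi-compact iff its space of points is quasi-compact. -/
theorem isQuasiCompactSp_iff_compactSpace {X : AlgSp.Sp S} (hX : AlgSp.IsAlgSpace X) :
    AlgSp.IsQuasiCompactSp X ↔ CompactSpace (Points X) := by
  constructor
  · rintro ⟨U, p, hpe, hps, hU⟩
    have hs := surjective_ofPt_of_repWith_surjective p hps
    have := isCompact_univ.image (Points.continuous_ofPt p)
    rw [Set.image_univ_of_surjective hs] at this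
    exact ⟨this⟩
  · intro hc
    obtain ⟨U, p, hpe, hps⟩ := hX.atlas
    have hs := surjective_ofPt_of_repWith_surjective p hps
    have ho := isOpenMap_ofPt_of_repWith_etale p hpe
    obtain ⟨t, ht⟩ := isCompact_univ.elim_finite_subcover
      (fun V : U.left.affineOpens => Points.ofPt p '' (V : Set U.left))
      (fun V => ho _ V.1.isOpen) (by
        intro x _
        obtain ⟨u, rfl⟩ := hs x
        have hu : u ∈ (⨆ V : U.left.affineOpens, (V : U.left.Opens)) := by
          rw [iSup_affineOpens_eq_top]; trivial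
        obtain ⟨V, hV⟩ := TopologicalSpace.Opens.mem_iSup.1 hu
        exact Set.mem_iUnion.2 ⟨V, ⟨u, hV, rfl⟩⟩)
    let W : U.left.Opens := ⨆ V ∈ t, (V : U.left.Opens)
    let U' : Over S := Over.mk (W.ι ≫ U.hom)
    let i : U' ⟶ U := Over.homMk W.ι rfl
    have := AlgSp.repWith_isMultiplicative (S := S) @Etale
    have hie : AlgSp.RepWith @Etale ((AlgSp.yon S).map i) :=
      (AlgSp.repWith_yon_map_iff _ _).2 (show Etale W.ι by infer_instance)
    refine ⟨U', (AlgSp.yon S).map i ≫ p, MorphismProperty.comp_mem _ _ _ hie hpe, ?_, ?_⟩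
    · rw [repWith_surjective_iff (MorphismProperty.comp_mem _ _ _
        (AlgSp.representable_yon_map i) hpe.1)]
      intro x
      obtain ⟨V, hVt, u, huV, rfl⟩ : ∃ V ∈ t, x ∈ Points.ofPt p '' (V : Set U.left) := by
        have := ht (Set.mem_univ x)
        simpa using this
      have huW : u ∈ (W : Set U.left) := by
        show u ∈ ((⨆ V ∈ t, (V : U.left.Opens) : U.left.Opens) : Set U.left)
        simp only [TopologicalSpace.Opens.coe_iSup, Set.mem_iUnion]
        exact ⟨V, hVt, huV⟩
      rw [← Scheme.Opens.range_ι W] at huW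
      obtain ⟨w, hw⟩ := huW
      refine ⟨Points.ofScheme U' w, ?_⟩
      rw [← Points.ofPt_eq_map_ofScheme, ofPt_yon_map_comp]
      rw [← hw]
      rfl
    · have hWc : IsCompact (W : Set U.left) := by
        simp only [W, TopologicalSpace.Opens.coe_iSup]
        exact t.isCompact_biUnion (fun V _ => V.2.isCompact)
      exact isCompact_iff_compactSpace.1 hWc

end Groth.Agent.Lib.Helper15.AlgSpChart
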