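import Mathlib.AlgebraicGeometry.Sites.Fpqc
import Mathlib.AlgebraicGeometry.Morphisms.UnderlyingMap
import Mathlib.AlgebraicGeometry.Morphisms.UniversallyOpen
import Mathlib.CategoryTheory.MorphismProperty.Local

/-!
Helpers (helper15): fppf coverings, topological properties local in the fppf topology.
-/

universe u

open CategoryTheory CategoryTheory.Limits AlgebraicGeometry

namespace Groth.Agent.Lib.Helper15

/-- Unpacking membership in the fppf precoverage. -/
theorem fppf_mem {X : Scheme.{u}} {R : Presieve X} (hR : R ∈ Scheme.fppfPrecoverage X) :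
    (∀ x : X, ∃ (Y : Scheme.{u}) (g : Y ⟶ X), R g ∧ x ∈ Set.range g) ∧
      ∀ ⦃Y : Scheme.{u}⦄ ⦃g : Y ⟶ X⦄, R g → Flat g ∧ LocallyOfFinitePresentation g := by
  obtain ⟨h1, h2⟩ := hR
  refine ⟨fun x => ?_, fun Y g hg => h2 hg⟩
  obtain ⟨Y, g, hg, hx⟩ := (Presieve.mem_comap_jointlySurjectivePrecoverage_iff _).1 h1 x
  exact ⟨Y, g, hg, hx⟩

theorem isOpenMap_of_fppf_mem {X U : Scheme.{u}} {R : Presieve X} (hR : R ∈ Scheme.fppfPrecoverage X)
    {g : U ⟶ X} (hg : R g) : IsOpenMap g := by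
  obtain ⟨h1, h2⟩ := (fppf_mem hR).2 hg
  exact g.isOpenMap

/-- Open maps are fppf local on the source. -/
theorem isOpenMap_isLocalAtSource_fppf :
    MorphismProperty.IsLocalAtSource (topologically (fun f => IsOpenMap f) : MorphismProperty Scheme.{u})
      Scheme.fppfPrecoverage where
  comp {X Y f R} hR U g hg hf := by
    show IsOpenMap (g ≫ f)
    rw [Scheme.Hom.comp_base, TopCat.coe_comp]
    exact hf.comp (isOpenMap_of_fppf_mem hR hg)
  of_forall_comp {X Y f R} hR h := by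
    show IsOpenMap f
    intro s hs
    rw [isOpen_iff_forall_mem_open]
    rintro _ ⟨x, hx, rfl⟩
    obtain ⟨U, g, hg, u, rfl⟩ := (fppf_mem hR).1 x
    refine ⟨(g ≫ f) '' (g ⁻¹' s), ?_, h hg _ (hs.preimage g.continuous), ⟨u, hx, rfl⟩⟩
    rintro _ ⟨v, hv, rfl⟩
    exact ⟨g v, hv, rfl⟩

/-- Universally open morphisms are fppf local on the source. -/
theorem universallyOpen_isLocalAtSource_fppf :
    MorphismProperty.IsLocalAtSource (@UniversallyOpen : MorphismProperty Scheme.{u})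
      Scheme.fppfPrecoverage where
  comp {X Y f R} hR U g hg hf := by
    obtain ⟨h1, h2⟩ := (fppf_mem hR).2 hg
    have : UniversallyOpen g := inferInstance
    exact (inferInstance : UniversallyOpen (g ≫ f))
  of_forall_comp {X Y f R} hR h := by
    refine ⟨fun X' Y' i₁ i₂ f' hsq => ?_⟩
    show IsOpenMap f'
    intro s hs
    rw [isOpen_iff_forall_mem_open]
    rintro _ ⟨x', hx', rfl⟩
    obtain ⟨U, g, hg, u, hu⟩ := (fppf_mem hR).1 (i₁ x')
    have := h hg
    obtain ⟨z, hz1, hz2⟩ := Scheme.Pullback.exists_preimage_pullback (f := i₁) (g := g) x' u hu.symm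
    have S1 : IsPullback (pullback.fst i₁ g) (pullback.snd i₁ g) i₁ g := IsPullback.of_hasPullback _ _
    have S2 := S1.paste_horiz hsq
    have hopen : IsOpenMap (pullback.fst i₁ g ≫ f') :=
      (h hg).universally_isOpenMap _ _ _ S2
    refine ⟨(pullback.fst i₁ g ≫ f') '' (pullback.fst i₁ g ⁻¹' s), ?_,
      hopen _ (hs.preimage (pullback.fst i₁ g).continuous), ⟨z, by simpa [hz1] using hx', ?_⟩⟩
    · rintro _ ⟨v, hv, rfl⟩
      exact ⟨pullback.fst i₁ g v, hv, rfl⟩
    · simp [hz1]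

/-- Being dominant is fppf local on the target. -/
theorem isDominant_isLocalAtTarget_fppf :
    MorphismProperty.IsLocalAtTarget (@IsDominant : MorphismProperty Scheme.{u})
      Scheme.fppfPrecoverage where
  pullbackSnd {X Y f R U g} hR hg hf _ := by
    refine ⟨?_⟩
    rw [DenseRange, dense_iff_inter_open]
    rintro V hV ⟨v, hv⟩
    have hgo := isOpenMap_of_fppf_mem hR hg
    obtain ⟨_, ⟨w, hw, hwv⟩, ⟨y, rfl⟩⟩ :=
      dense_iff_inter_open.1 hf.denseRange (g '' V) (hgo V hV) ⟨g v, v, hv, rfl⟩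
    obtain ⟨z, hz1, hz2⟩ := Scheme.Pullback.exists_preimage_pullback (f := f) (g := g) y w hwv.symm
    exact ⟨w, hw, z, hz2⟩
  of_forall_pullbackSnd {X Y f R} hR h := by
    refine ⟨?_⟩
    rw [DenseRange, dense_iff_inter_open]
    rintro V hV ⟨x, hx⟩
    obtain ⟨U, g, hg, u, rfl⟩ := (fppf_mem hR).1 x
    have hd := (h hg).denseRange
    obtain ⟨_, hw, ⟨z, rfl⟩⟩ :=
      dense_iff_inter_open.1 hd (g ⁻¹' V) (hV.preimage g.continuous) ⟨u, hx⟩
    refine ⟨f (pullback.fst f g z), ?_, ⟨_, rfl⟩⟩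
    rw [← Scheme.Hom.comp_apply, pullback.condition, Scheme.Hom.comp_apply]
    exact hw

end Groth.Agent.Lib.Helper15
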