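import Mathlib.AlgebraicGeometry.Geometrically.Reduced
import Mathlib.AlgebraicGeometry.Geometrically.Irreducible
import Mathlib.AlgebraicGeometry.Geometrically.Connected
import Mathlib.AlgebraicGeometry.Morphisms.Flat
import Mathlib.AlgebraicGeometry.Fiber
import Mathlib.RingTheory.TensorProduct.Nontrivial

/-!
Helpers (helper15): geometric properties of fibres under base change.
-/

universe u

open CategoryTheory CategoryTheory.Limits AlgebraicGeometry

namespace Groth.Agent.Lib.Helper15

/-- Two field extensions of `L` embed compatibly into a common field. -/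
theorem field_amalgamation {L Ω₁ Ω₂ : Type u} [CommRing L] [CommRing Ω₁] [CommRing Ω₂]
    (hL : IsField L) (h1 : IsField Ω₁) (h2 : IsField Ω₂) (φ₁ : L →+* Ω₁) (φ₂ : L →+* Ω₂) :
    ∃ (Ω : Type u) (_ : Field Ω) (i₁ : Ω₁ →+* Ω) (i₂ : Ω₂ →+* Ω), i₁.comp φ₁ = i₂.comp φ₂ := by
  let _ := φ₁.toAlgebra
  let _ := φ₂.toAlgebra
  have := h1.isDomain
  have := h2.isDomain
  have inj : ∀ {A : Type u} [CommRing A] [Nontrivial A] (φ : L →+* A), Function.Injective φ := by
    intro A _ _ φ
    let := hL.toField
    exact φ.injective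
  have : Nontrivial (TensorProduct L Ω₁ Ω₂) :=
    Algebra.TensorProduct.nontrivial_of_algebraMap_injective_of_isDomain L Ω₁ Ω₂
      (inj _) (inj _)
  obtain ⟨m, hm⟩ := Ideal.exists_maximal (TensorProduct L Ω₁ Ω₂)
  refine ⟨TensorProduct L Ω₁ Ω₂ ⧸ m, Ideal.Quotient.field m,
    (Ideal.Quotient.mk m).comp Algebra.TensorProduct.includeLeftRingHom,
    (Ideal.Quotient.mk m).comp
      (Algebra.TensorProduct.includeRight (R := L) (A := Ω₁) (B := Ω₂)).toRingHom, ?_⟩
  ext x
  change Ideal.Quotient.mk m (algebraMap L Ω₁ x ⊗ₜ[L] (1 : Ω₂)) =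
    Ideal.Quotient.mk m ((1 : Ω₁) ⊗ₜ[L] algebraMap L Ω₂ x)
  rw [Algebra.TensorProduct.tmul_one_eq_one_tmul]

/-- Two field extensions of `L` embed compatibly into a common field (in `CommRingCat`). -/
theorem field_amalgamation' {L Ω₁ Ω₂ : CommRingCat.{u}} (hL : IsField L) (h1 : IsField Ω₁)
    (h2 : IsField Ω₂) (φ₁ : L ⟶ Ω₁) (φ₂ : L ⟶ Ω₂) :
    ∃ (Ω : Type u) (_ : Field Ω) (i₁ : Ω₁ ⟶ CommRingCat.of Ω) (i₂ : Ω₂ ⟶ CommRingCat.of Ω),
      φ₁ ≫ i₁ = φ₂ ≫ i₂ := by
  obtain ⟨Ω, _, i₁, i₂, hi⟩ := field_amalgamation hL h1 h2 φ₁.hom φ₂.hom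
  exact ⟨Ω, _, CommRingCat.ofHom i₁, CommRingCat.ofHom i₂, by
    ext x; exact congrArg (fun h => h x) hi⟩

/-- A flat morphism is injective on stalks' local rings (flat local maps are faithfully flat). -/
theorem stalkMap_injective_of_flat {X Y : Scheme.{u}} (f : X ⟶ Y) [Flat f] (x : X) :
    Function.Injective (f.stalkMap x).hom := by
  algebraize [(f.stalkMap x).hom]
  have : Module.FaithfullyFlat (Y.presheaf.stalk (f x)) (X.presheaf.stalk x) :=
    @Module.FaithfullyFlat.of_flat_of_isLocalHom _ _ _ _ _ _ _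
      (Flat.stalkMap f x) (f.toLRSHom.prop x)
  exact ‹RingHom.FaithfullyFlat _›.injective

/-- Reducedness descends along flat surjective morphisms. -/
theorem isReduced_of_flat_surjective {X Y : Scheme.{u}} (f : X ⟶ Y) [Flat f] [Surjective f]
    [IsReduced X] : IsReduced Y := by
  have : ∀ y : Y, _root_.IsReduced (Y.presheaf.stalk y) := by
    intro y
    obtain ⟨x, rfl⟩ := f.surjective y
    exact isReduced_of_injective (f.stalkMap x).hom (stalkMap_injective_of_flat f x)
  exact isReduced_of_isReduced_stalk Y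

/-- The fibre of a base change is the base change of the fibre along the map of residue fields. -/
theorem isPullback_fiber_baseChange {X Y X' Y' : Scheme.{u}} (f : X ⟶ Y) (g : Y' ⟶ Y)
    (f' : X' ⟶ Y') (g' : X' ⟶ X) (hc : IsPullback g' f' f g) (y' : Y') :
    ∃ t : f'.fiber y' ⟶ f.fiber (g y'), IsPullback t (f'.fiberToSpecResidueField y')
      (f.fiberToSpecResidueField (g y')) (Spec.map (g.residueFieldMap y')) := by
  have S2 : IsPullback (f'.fiberι y') (f'.fiberToSpecResidueField y') f'
      (Y'.fromSpecResidueField y') := IsPullback.of_hasPullback _ _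
  have R1 := S2.paste_horiz hc
  rw [← Scheme.Hom.SpecMap_residueFieldMap_fromSpecResidueField] at R1
  have S3 : IsPullback (f.fiberι (g y')) (f.fiberToSpecResidueField (g y')) f
      (Y.fromSpecResidueField (g y')) := IsPullback.of_hasPullback _ _
  exact ⟨_, IsPullback.of_right' R1 S3⟩

/-- For a property `P` of schemes descending along flat surjective morphisms, the locus of points
with geometrically `P` fibre is compatible with base change. -/
theorem geometrically_fiber_baseChange_iff (P : ObjectProperty Scheme.{u})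
    (hdesc : ∀ {Z W : Scheme.{u}} (p : W ⟶ Z), Flat p → Surjective p → P W → P Z)
    {X Y X' Y' : Scheme.{u}} (f : X ⟶ Y) (g : Y' ⟶ Y) (f' : X' ⟶ Y') (g' : X' ⟶ X)
    (hc : IsPullback g' f' f g) (y' : Y') :
    geometrically P (f'.fiberToSpecResidueField y') ↔
      geometrically P (f.fiberToSpecResidueField (g y')) := by
  obtain ⟨t, sq⟩ := isPullback_fiber_baseChange f g f' g' hc y'
  constructor
  · intro H K _ a Z fst snd hZ
    obtain ⟨φ, rfl⟩ := Spec.map_surjective a
    obtain ⟨Ω, _, i₁, i₂, hi⟩ := field_amalgamation' (Field.toIsField _) (Field.toIsField _)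
      (Field.toIsField _) φ (g.residueFieldMap y')
    let b₁ : Spec (CommRingCat.of Ω) ⟶ Spec (CommRingCat.of K) := Spec.map i₁
    let b₂ : Spec (CommRingCat.of Ω) ⟶ Spec (Y'.residueField y') := Spec.map i₂
    have hb : b₁ ≫ Spec.map φ = b₂ ≫ Spec.map (g.residueFieldMap y') := by
      dsimp only [b₁, b₂]
      rw [← Spec.map_comp, ← Spec.map_comp, hi]
    have S4 : IsPullback (pullback.fst snd b₁) (pullback.snd snd b₁) snd b₁ :=
      IsPullback.of_hasPullback _ _
    have R2 := S4.paste_horiz hZ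
    rw [hb] at R2
    have R3 := IsPullback.of_right' R2 sq
    have hW : P (pullback snd b₁) := H _ _ _ R3
    have hfl : Flat b₁ := by
      rw [HasRingHomProperty.Spec_iff (P := @Flat)]
      exact RingHom.Flat.of_isField (Field.toIsField K) _
    exact hdesc (pullback.fst snd b₁) inferInstance inferInstance hW
  · intro H
    exact (geometrically P).of_isPullback sq H

end Groth.Agent.Lib.Helper15
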