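import Mathlib.AlgebraicGeometry.ValuativeCriterion
import Mathlib.AlgebraicGeometry.Morphisms.Separated

set_option autoImplicit false
universe u

open CategoryTheory CategoryTheory.Limits AlgebraicGeometry

namespace Groth.Agent.Lib.Helper15

/-- A quasi-separated scheme without nontrivial specializations is separated. -/
theorem isSeparated_of_specializes_eq (X : Scheme.{u}) [QuasiSeparatedSpace X]
    (h : ∀ a b : X, a ⤳ b → a = b) : X.IsSeparated := by
  constructor
  apply IsSeparated.of_valuativeCriterion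
  intro S
  constructor
  intro L₁ L₂
  let k0 : Spec (CommRingCat.of S.K) := (⟨⊥, Ideal.isPrime_bot⟩ : PrimeSpectrum S.K)
  let φ := Spec.map (CommRingCat.ofHom (algebraMap S.R S.K))
  have hinj : Function.Injective (algebraMap S.R S.K) := IsFractionRing.injective S.R S.K
  have hη : ∀ p : Spec (CommRingCat.of S.R), φ k0 ⤳ p := by
    intro p
    refine (PrimeSpectrum.le_iff_specializes (x := (φ k0 : PrimeSpectrum S.R))
      (y := (p : PrimeSpectrum S.R))).1 ?_
    show (φ k0).asIdeal ≤ p.asIdeal
    have : (φ k0).asIdeal = ⊥ := by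
      show Ideal.comap (algebraMap S.R S.K) ⊥ = ⊥
      rw [← RingHom.ker_eq_comap_bot]
      exact (RingHom.injective_iff_ker_eq_bot _).1 hinj
    rw [this]
    exact bot_le
  let x := S.i₁ k0
  have hval : ∀ (L : S.commSq.LiftStruct) (p : Spec (CommRingCat.of S.R)), L.l p = x := by
    intro L p
    have h1 : L.l (φ k0) ⤳ L.l p := (hη p).map L.l.continuous
    have h2 : L.l (φ k0) = x := by
      show (φ ≫ L.l) k0 = S.i₁ k0
      rw [L.fac_left]
    rw [h2] at h1
    exact (h _ _ h1).symm
  have hex : ∃ U : X.Opens, IsAffineOpen U ∧ x ∈ U := by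
    obtain ⟨_, ⟨U, hU, rfl⟩, hxU, -⟩ :=
      X.isBasis_affineOpens.exists_subset_of_mem_open (Set.mem_univ x) isOpen_univ
    exact ⟨U, hU, hxU⟩
  obtain ⟨U, hU, hxU⟩ := hex
  have : IsAffine U.toScheme := hU
  have hr : ∀ L : S.commSq.LiftStruct, Set.range L.l ⊆ Set.range U.ι := by
    rintro L _ ⟨p, rfl⟩
    rw [Scheme.Opens.range_ι, hval L p]
    exact hxU
  have hdom : IsDominant φ := by
    rw [isDominant_iff]
    intro p
    have : p ∈ closure {φ k0} := specializes_iff_mem_closure.1 (hη p)
    exact closure_mono (Set.singleton_subset_iff.2 (Set.mem_range_self k0)) this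
  have hl : IsOpenImmersion.lift U.ι L₁.l (hr L₁) = IsOpenImmersion.lift U.ι L₂.l (hr L₂) := by
    apply ext_of_isDominant φ
    rw [← cancel_mono U.ι, Category.assoc, Category.assoc, IsOpenImmersion.lift_fac,
      IsOpenImmersion.lift_fac]
    exact L₁.fac_left.trans L₂.fac_left.symm
  have : L₁.l = L₂.l := by
    rw [← IsOpenImmersion.lift_fac U.ι L₁.l (hr L₁), ← IsOpenImmersion.lift_fac U.ι L₂.l (hr L₂), hl]
  exact CommSq.LiftStruct.ext this

end Groth.Agent.Lib.Helper15
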