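import Mathlib.AlgebraicGeometry.Morphisms.Separated
import Mathlib.AlgebraicGeometry.Morphisms.Affine
import Mathlib.RingTheory.KrullDimension.Zero
import Mathlib.RingTheory.Spectrum.Prime.Topology
import Mathlib.Topology.KrullDimension
import Mathlib.AlgebraicGeometry.Artinian
import Mathlib.Topology.Sheaves.CommRingCat

set_option autoImplicit false
universe u

open CategoryTheory CategoryTheory.Limits AlgebraicGeometry Opposite

namespace Groth.Agent.Lib.Helper15

/-- The prime spectrum of a zero-dimensional ring is Hausdorff. -/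
theorem t2Space_primeSpectrum_of_krullDimLE_zero (A : Type u) [CommRing A] [Ring.KrullDimLE 0 A] :
    T2Space (PrimeSpectrum A) := by
  refine ⟨fun p q hpq => ?_⟩
  have hq : q.asIdeal ∈ minimalPrimes A := Ideal.mem_minimalPrimes_of_krullDimLE_zero _
  have hnle : ¬ q.asIdeal ≤ p.asIdeal := by
    intro hle
    have hmax : q.asIdeal.IsMaximal := Ideal.IsPrime.isMaximal' q.isPrime
    have := hmax.eq_of_le p.isPrime.ne_top hle
    exact hpq (PrimeSpectrum.ext this.symm)
  obtain ⟨a, haq, hap⟩ := Set.not_subset.1 hnle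
  let Aq := Localization.AtPrime q.asIdeal
  have : Ring.KrullDimLE 0 Aq := Ring.KrullDimLE.of_isLocalization q.asIdeal hq Aq
  have hnil : IsNilpotent (algebraMap A Aq a) := by
    rw [Ring.KrullDimLE.isNilpotent_iff_mem_maximalIdeal, ← Localization.AtPrime.map_eq_maximalIdeal]
    exact Ideal.mem_map_of_mem _ haq
  obtain ⟨n, hn⟩ := hnil
  rw [← map_pow] at hn
  obtain ⟨⟨s, hs⟩, hs0⟩ := (IsLocalization.map_eq_zero_iff q.asIdeal.primeCompl Aq _).1 hn
  refine ⟨PrimeSpectrum.basicOpen (a ^ n), PrimeSpectrum.basicOpen s,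
    (PrimeSpectrum.basicOpen _).isOpen, (PrimeSpectrum.basicOpen _).isOpen, ?_, ?_, ?_⟩
  · show a ^ n ∉ p.asIdeal
    exact fun h => hap (p.isPrime.mem_of_pow_mem n h)
  · exact hs
  · have h0 : PrimeSpectrum.basicOpen (a ^ n) ⊓ PrimeSpectrum.basicOpen s = ⊥ := by
      rw [← PrimeSpectrum.basicOpen_mul, mul_comm, hs0, PrimeSpectrum.basicOpen_zero]
    rw [Set.disjoint_iff]
    intro z hz
    have : z ∈ (PrimeSpectrum.basicOpen (a ^ n) ⊓ PrimeSpectrum.basicOpen s :
      TopologicalSpace.Opens (PrimeSpectrum A)) := hz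
    rw [h0] at this
    exact this

/-- An affine open of a scheme of dimension at most zero is Hausdorff. -/
theorem t2Space_affineOpen_of_dim_le_zero (X : Scheme.{u}) (h : topologicalKrullDim X ≤ 0)
    (U : X.Opens) (hU : IsAffineOpen U) : T2Space U := by
  have : Ring.KrullDimLE 0 Γ(X, U) := by
    rw [Ring.KrullDimLE, Order.krullDimLE_iff, ← ringKrullDim, Nat.cast_zero,
      ← PrimeSpectrum.topologicalKrullDim_eq_ringKrullDim Γ(X, U)]
    change topologicalKrullDim (Spec Γ(X, U)) ≤ 0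
    rw [← IsHomeomorph.topologicalKrullDim_eq _ hU.isoSpec.hom.homeomorph.isHomeomorph]
    exact (topologicalKrullDim_subspace_le X U).trans h
  have : T2Space (Spec Γ(X, U)) := t2Space_primeSpectrum_of_krullDimLE_zero Γ(X, U)
  exact hU.isoSpec.hom.homeomorph.isEmbedding.t2Space

/-- Same, for the subspace topology on the underlying set. -/
theorem t2Space_affineOpen_of_dim_le_zero' (X : Scheme.{u}) (h : topologicalKrullDim X ≤ 0)
    (U : X.Opens) (hU : IsAffineOpen U) : T2Space (U : Set X) := by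
  have := t2Space_affineOpen_of_dim_le_zero X h U hU
  exact this

/-- For disjoint opens `A`, `B` there is a section over `A ⊔ B` which is `1` on `A` and `0` on `B`. -/
theorem exists_idem_of_disjoint (X : Scheme.{u}) (A B : X.Opens) (h : A ⊓ B = ⊥) :
    ∃ e : Γ(X, A ⊔ B), X.basicOpen e = A ∧ X.basicOpen (1 - e) = B := by
  have hsub : Subsingleton Γ(X, A ⊓ B) := h ▸ inferInstance
  let e : Γ(X, A ⊔ B) := (TopCat.Sheaf.objSupIsoProdEqLocus X.sheaf A B).inv
    ⟨(1, 0), @Subsingleton.elim Γ(X, A ⊓ B) hsub _ _⟩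
  have he1 : X.presheaf.map (homOfLE le_sup_left).op e = 1 :=
    TopCat.Sheaf.objSupIsoProdEqLocus_inv_fst X.sheaf A B _
  have he2 : X.presheaf.map (homOfLE le_sup_right).op e = 0 :=
    TopCat.Sheaf.objSupIsoProdEqLocus_inv_snd X.sheaf A B _
  have he1' : X.presheaf.map (homOfLE le_sup_left).op (1 - e) = 0 := by
    rw [map_sub, map_one, he1, sub_self]
  have he2' : X.presheaf.map (homOfLE le_sup_right).op (1 - e) = 1 := by
    rw [map_sub, map_one, he2, sub_zero]
  have key : ∀ (f : Γ(X, A ⊔ B)) (P Q : X.Opens) (hP : P ≤ A ⊔ B) (hQ : Q ≤ A ⊔ B),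
      P ⊔ Q = A ⊔ B → X.presheaf.map (homOfLE hP).op f = 1 →
      X.presheaf.map (homOfLE hQ).op f = 0 → P ⊓ Q = ⊥ → X.basicOpen f = P := by
    intro f P Q hP hQ hPQ h1 h0 hdisj
    have hr1 := X.basicOpen_res f (homOfLE hP).op
    have hr0 := X.basicOpen_res f (homOfLE hQ).op
    rw [h1, Scheme.basicOpen_one] at hr1
    rw [h0, Scheme.basicOpen_zero] at hr0
    apply le_antisymm
    · intro z hz
      have hzAB : z ∈ A ⊔ B := X.basicOpen_le f hz
      rw [← hPQ] at hzAB
      rcases hzAB with hzP | hzQ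
      · exact hzP
      · have : z ∈ Q ⊓ X.basicOpen f := ⟨hzQ, hz⟩
        rw [← hr0] at this
        exact absurd this (by simp)
    · rw [hr1]; exact inf_le_right
  refine ⟨e, key e A B le_sup_left le_sup_right rfl he1 he2 h, ?_⟩
  exact key (1 - e) B A le_sup_right le_sup_left (sup_comm B A) he2' he1' (by rw [inf_comm, h])

theorem isAffineOpen_sup_of_disjoint (X : Scheme.{u}) (A B : X.Opens) (hA : IsAffineOpen A)
    (hB : IsAffineOpen B) (h : A ⊓ B = ⊥) : IsAffineOpen (A ⊔ B) := by
  obtain ⟨e, he, he'⟩ := exists_idem_of_disjoint X A B h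
  apply isAffineOpen_of_isAffineOpen_basicOpen (A ⊔ B) {e, 1 - e}
  · rw [Ideal.eq_top_iff_one]
    have : (1 : Γ(X, A ⊔ B)) = e + (1 - e) := by ring
    rw [this]
    exact Ideal.add_mem _ (Ideal.subset_span (by simp)) (Ideal.subset_span (by simp))
  · intro i hi
    rcases hi with rfl | hi
    · rw [he]; exact hA
    · rw [Set.mem_singleton_iff] at hi
      subst hi
      rw [he']; exact hB

theorem isAffineOpen_of_disjoint_of_sup (X : Scheme.{u}) (A B : X.Opens)
    (hAB : IsAffineOpen (A ⊔ B)) (h : A ⊓ B = ⊥) : IsAffineOpen B := by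
  obtain ⟨e, he, he'⟩ := exists_idem_of_disjoint X A B h
  rw [← he']
  exact hAB.basicOpen (1 - e)

end Groth.Agent.Lib.Helper15
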